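import Mathlib
import Cfsg.Agent.PiClasses.Action
import Cfsg.Agent.CoprimeAction.Invariant

/-!
Many classes of `π`-elements force an abelian Hall subgroup when the Sylow subgroups are abelian.
-/

set_option autoImplicit false

namespace CfsgLib.PiClasses

open CfsgLib.ClassesPi
open scoped Pointwise

universe u

theorem isMulCommutative_of_map {G G' : Type*} [Group G] [Group G'] {Q : Subgroup G} (f : G →* G')
    (hf : Function.Injective f) (h : IsMulCommutative (Q.map f)) : IsMulCommutative Q :=
  ⟨⟨fun x y => Subtype.ext (hf (by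
    have := congrArg Subtype.val (h.is_comm.comm (⟨_, Subgroup.mem_map_of_mem f x.2⟩ : Q.map f)
      ⟨_, Subgroup.mem_map_of_mem f y.2⟩)
    simpa using this))⟩⟩

theorem isNilpotent_of_isMulCommutative {G : Type*} [Group G] (H : Subgroup G) [IsMulCommutative H] :
    Group.IsNilpotent H :=
  @CommGroup.isNilpotent H { (inferInstance : Group H) with mul_comm := mul_comm' }

theorem kPi_congr_equiv {G G' : Type*} [Group G] [Finite G] [Group G'] [Finite G'] (π : Set ℕ) (e : G ≃* G') :
    kPi π G ≤ kPi π G' := by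
  refine Nat.card_le_card_of_injective
    (fun c : {c : ConjClasses G // ∃ x, ConjClasses.mk x = c ∧ IsPiElt π x} =>
      (⟨ConjClasses.map e.toMonoidHom c.1, by
        obtain ⟨c, x, rfl, hx⟩ := c
        exact ⟨e x, rfl, fun r hr hd => hx r hr (by rwa [MulEquiv.orderOf_eq] at hd)⟩⟩ :
        {c : ConjClasses G' // ∃ x, ConjClasses.mk x = c ∧ IsPiElt π x})) fun a b hab => Subtype.ext ?_
  obtain ⟨a, ha⟩ := a
  obtain ⟨b, hb⟩ := b
  obtain ⟨x, rfl⟩ := ConjClasses.mk_surjective a
  obtain ⟨y, rfl⟩ := ConjClasses.mk_surjective b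
  have h : ConjClasses.mk (e x) = ConjClasses.mk (e y) := congrArg Subtype.val hab
  obtain ⟨c, hc⟩ := isConj_iff.mp (ConjClasses.mk_eq_mk_iff_isConj.mp h)
  refine ConjClasses.mk_eq_mk_iff_isConj.mpr (isConj_iff.mpr ⟨e.symm c, e.injective ?_⟩)
  rw [map_mul, map_mul, map_inv, e.apply_symm_apply]
  exact hc

theorem exists_centralizer_equiv {G : Type*} [Group G] {x y : G} (h : IsConj x y) :
    Nonempty (Subgroup.centralizer ({x} : Set G) ≃* Subgroup.centralizer ({y} : Set G)) := by
  obtain ⟨g, rfl⟩ := isConj_iff.mp h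
  refine ⟨((MulAut.conj g).subgroupMap _).trans (MulEquiv.subgroupCongr ?_)⟩
  ext z
  rw [Subgroup.mem_map, Subgroup.mem_centralizer_singleton_iff]
  constructor
  · rintro ⟨w, hw, rfl⟩
    rw [Subgroup.mem_centralizer_singleton_iff] at hw
    show g * w * g⁻¹ * (g * x * g⁻¹) = g * x * g⁻¹ * (g * w * g⁻¹)
    calc g * w * g⁻¹ * (g * x * g⁻¹) = g * (w * x) * g⁻¹ := by group
      _ = g * (x * w) * g⁻¹ := by rw [hw]
      _ = g * x * g⁻¹ * (g * w * g⁻¹) := by group
  · intro hz
    refine ⟨g⁻¹ * z * g, Subgroup.mem_centralizer_singleton_iff.mpr ?_, by simp [mul_assoc]⟩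
    calc g⁻¹ * z * g * x = g⁻¹ * (z * (g * x * g⁻¹)) * g := by group
      _ = g⁻¹ * (g * x * g⁻¹ * z) * g := by rw [hz]
      _ = x * (g⁻¹ * z * g) := by group

variable {G : Type*} [Group G] [Finite G] {S : Finset ℕ}

theorem part_eq_of_le (hS : ∀ q ∈ S, q.Prime) {H C : Subgroup G} (hH : Nat.card H = part S G) (hHC : H ≤ C) :
    part S C = part S G := by
  refine Finset.prod_congr rfl fun q hq => congrArg (q ^ ·) (le_antisymm
    ((Nat.factorization_le_iff_dvd Nat.card_pos.ne' Nat.card_pos.ne').2 (Subgroup.card_subgroup_dvd_card C) q) ?_)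
  refine ((hS q hq).pow_dvd_iff_le_factorization Nat.card_pos.ne').mp ?_
  exact ((Finset.dvd_prod_of_mem (fun r => r ^ (Nat.card G).factorization r) hq).trans
    (dvd_of_eq hH.symm)).trans (Subgroup.card_dvd_of_le hHC)

theorem conj_into_hall_of_le (hS : ∀ q ∈ S, q.Prime) {H C : Subgroup G} (hn : Group.IsNilpotent H)
    (hH : Nat.card H = part S G) (hHC : H ≤ C) {x : C} (hx : IsPiElt (S : Set ℕ) x) :
    ∃ g : C, ((g * x * g⁻¹ : C) : G) ∈ H := by
  haveI := hn
  have hn' : Group.IsNilpotent (H.subgroupOf C) :=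
    Group.nilpotent_of_surjective (Subgroup.subgroupOfEquivOfLe hHC).symm.toMonoidHom
      (Subgroup.subgroupOfEquivOfLe hHC).symm.surjective
  exact conj_into_hall hS hn' ((Nat.card_congr (Subgroup.subgroupOfEquivOfLe hHC).toEquiv).trans
    (hH.trans (part_eq_of_le hS hH hHC).symm)) hx

/-- Frattini argument for a nilpotent Hall subgroup inside a normal subgroup. -/
theorem pow_dvd_normalizer (hS : ∀ q ∈ S, q.Prime) {H K C : Subgroup G} [K.Normal] (hn : Group.IsNilpotent H)
    (hH : Nat.card H = part S G) (hHK : H ≤ K) (hHC : H ≤ C) {r v : ℕ} (hr : r.Prime)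
    (hrK : ¬ r ∣ Nat.card K) (hv : r ^ v ∣ Nat.card C) :
    r ^ v ∣ Nat.card ↥(Subgroup.normalizer (H : Set G) ⊓ C) := by
  set f : C →* G ⧸ K := (QuotientGroup.mk' K).comp C.subtype with hf
  have hker : f.ker.map C.subtype ≤ K := by
    rintro _ ⟨z, hz, rfl⟩
    exact (QuotientGroup.eq_one_iff _).mp (MonoidHom.mem_ker.mp hz)
  have hr1 : r ^ v ∣ Nat.card f.range := by
    have h1 := f.ker.card_mul_index
    rw [Subgroup.index_ker] at h1
    refine (Nat.Coprime.dvd_of_dvd_mul_left ?_ (h1.symm ▸ hv))
    refine Nat.Coprime.pow_left _ ((hr.coprime_iff_not_dvd).mpr fun hd => hrK ?_)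
    rw [← Subgroup.card_map_of_injective (f := C.subtype) C.subtype_injective] at hd
    exact hd.trans (Subgroup.card_dvd_of_le hker)
  set N := Subgroup.normalizer (H : Set G) ⊓ C
  have hrange : f.range ≤ N.map (QuotientGroup.mk' K) := by
    rintro _ ⟨c, rfl⟩
    have hH' : Nat.card H = part S ↥(K ⊓ C) → True := fun _ => trivial
    have hle : H ≤ K ⊓ C := le_inf hHK hHC
    haveI := hn
    have hn' : Group.IsNilpotent (H.subgroupOf (K ⊓ C)) :=
      Group.nilpotent_of_surjective (Subgroup.subgroupOfEquivOfLe hle).symm.toMonoidHom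
        (Subgroup.subgroupOfEquivOfLe hle).symm.surjective
    have hcard : Nat.card (H.subgroupOf (K ⊓ C)) = part S ↥(K ⊓ C) :=
      (Nat.card_congr (Subgroup.subgroupOfEquivOfLe hle).toEquiv).trans (hH.trans (part_eq_of_le hS hH hle).symm)
    -- the conjugate of `H` by `c`
    set Hc := ((MulAut.conj (c : G)) • H).subgroupOf (K ⊓ C)
    have hHc : (MulAut.conj (c : G)) • H ≤ K ⊓ C := by
      rintro _ ⟨x, hx, rfl⟩
      refine ⟨?_, ?_⟩
      · show (c : G) * x * (c : G)⁻¹ ∈ K
        exact (inferInstance : K.Normal).conj_mem x (hHK hx) _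
      · show (c : G) * x * (c : G)⁻¹ ∈ C
        exact C.mul_mem (C.mul_mem c.2 (hHC hx)) (C.inv_mem c.2)
    obtain ⟨g, hg⟩ := hall_conj hS hn' hcard (K := Hc) fun q hq hd => by
      rw [Nat.card_congr (Subgroup.subgroupOfEquivOfLe hHc).toEquiv,
        Nat.card_congr (Subgroup.equivSMul (MulAut.conj (c : G)) H).symm.toEquiv, hH] at hd
      exact prime_dvd_part hS hq hd
    have hn2 : (g : G) * c ∈ Subgroup.normalizer (H : Set G) := by
      refine Subgroup.mem_normalizer_fintype fun x hx => ?_
      have hxc : (c : G) * x * (c : G)⁻¹ ∈ MulAut.conj (c : G) • H := ⟨x, hx, rfl⟩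
      have := Subgroup.mem_subgroupOf.mp (hg ⟨_, hHc hxc⟩ (Subgroup.mem_subgroupOf.mpr hxc))
      show (g : G) * c * x * ((g : G) * c)⁻¹ ∈ H
      simpa [mul_assoc] using this
    refine ⟨(g : G) * c, ⟨hn2, C.mul_mem g.2.2 c.2⟩, ?_⟩
    show QuotientGroup.mk' K ((g : G) * c) = QuotientGroup.mk' K (c : G)
    rw [map_mul, show QuotientGroup.mk' K (g : G) = 1 from (QuotientGroup.eq_one_iff _).mpr g.2.1, one_mul]
  exact hr1.trans ((Subgroup.card_dvd_of_le hrange).trans (Subgroup.card_map_dvd _ _))

omit [Finite G] in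
theorem exists_prod_hom {H R : Subgroup G} (hc : R ≤ Subgroup.centralizer (H : Set G))
    (hcop : (Nat.card H).Coprime (Nat.card R)) :
    ∃ f : H × R →* G, Function.Injective f ∧ ∀ x, f x = (x.1 : G) * x.2 := by
  refine ⟨MonoidHom.noncommCoprod H.subtype R.subtype fun h r =>
    Subgroup.mem_centralizer_iff.mp (hc r.2) h h.2, ?_, fun x => rfl⟩
  rw [injective_iff_map_eq_one]
  rintro ⟨h, r⟩ hhr
  change (h : G) * (r : G) = 1 at hhr
  have hmem : (h : G) ∈ H ⊓ R := ⟨h.2, by rw [eq_inv_of_mul_eq_one_left hhr]; exact R.inv_mem r.2⟩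
  rw [Subgroup.inf_eq_bot_of_coprime hcop, Subgroup.mem_bot] at hmem
  rw [hmem, one_mul] at hhr
  exact Prod.ext (Subtype.ext hmem) (Subtype.ext hhr)

theorem arith_action {q k n b W M a kr m : ℕ} (hq : 1 ≤ q) (hk : k ≤ n * m + b * W) (hW : q * W ≤ m)
    (hnb : n + b = kr) (hn : n ≤ a) (hkr : q * kr ≤ M + (q - 1) * a) (ha : (q + 1) * a ≤ M) :
    q * k ≤ M * m := by
  obtain ⟨c, rfl⟩ : ∃ c, q = c + 1 := ⟨q - 1, by omega⟩
  rw [Nat.add_sub_cancel] at hkr
  have h1 : (c + 1) * ((c + 1) * k) ≤ m * ((c + 1) * ((c + 1) * n) + (c + 1) * b) := by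
    calc (c + 1) * ((c + 1) * k) ≤ (c + 1) * ((c + 1) * (n * m + b * W)) := by gcongr
      _ = m * ((c + 1) * ((c + 1) * n)) + (c + 1) * b * ((c + 1) * W) := by ring
      _ ≤ m * ((c + 1) * ((c + 1) * n)) + (c + 1) * b * m := by gcongr
      _ = _ := by ring
  have h2 : (c + 1) * ((c + 1) * n) + (c + 1) * b ≤ (c + 1) * M := by
    subst hnb
    nlinarith [Nat.mul_le_mul_left (c * (c + 1)) hn, Nat.mul_le_mul_left c ha]
  refine Nat.le_of_mul_le_mul_left (h1.trans ?_) (Nat.succ_pos c)
  calc m * ((c + 1) * ((c + 1) * n) + (c + 1) * b) ≤ m * ((c + 1) * M) := by gcongr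
    _ = _ := by ring

theorem arith_fusion {p r k n b K W M a kr m : ℕ} (hp : 1 ≤ p) (hr : 0 < r) (hpr : p ≤ r)
    (hk : k ≤ n * K + b * W) (hK : 2 * p * K ≤ (p + 1) * m) (hW : p * W ≤ m) (hnb : n + b = kr) (hn : n ≤ a)
    (ha : r * a ≤ M) (hkr : 2 * r * kr ≤ (r + 1) * M) : p * k ≤ M * m := by
  obtain ⟨c, rfl⟩ : ∃ c, p = c + 1 := ⟨p - 1, by omega⟩
  have h1 : 2 * r * ((c + 1) * k) ≤ m * (r * n * (c + 2) + 2 * r * b) := by
    calc 2 * r * ((c + 1) * k) ≤ 2 * r * ((c + 1) * (n * K + b * W)) := by gcongr
      _ = r * n * (2 * (c + 1) * K) + 2 * r * b * ((c + 1) * W) := by ring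
      _ ≤ r * n * ((c + 1 + 1) * m) + 2 * r * b * m := by gcongr
      _ = _ := by ring
  have h2 : r * n * (c + 2) + 2 * r * b ≤ 2 * r * M := by
    subst hnb
    nlinarith [Nat.mul_le_mul_left (r * c) hn, Nat.mul_le_mul_left c ha, Nat.mul_le_mul_right M hpr]
  refine Nat.le_of_mul_le_mul_left (h1.trans ?_) (by omega : 0 < 2 * r)
  calc m * (r * n * (c + 2) + 2 * r * b) ≤ m * (2 * r * M) := by gcongr
    _ = _ := by ring

/-- All Sylow subgroups for `S` abelian and many classes give an abelian Hall subgroup. -/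
theorem abelian_hall {p : ℕ} (hp : 1 ≤ p) : ∀ (S : Finset ℕ) (G : Type u) [Group G] [Finite G],
    (∀ q ∈ S, q.Prime ∧ p ≤ q) → (∀ q ∈ S, ∀ Q : Subgroup G, IsPGroup q Q → IsMulCommutative Q) →
    part S G < p * kPi (S : Set ℕ) G → ∃ H : Subgroup G, IsMulCommutative H ∧ Nat.card H = part S G := by
  intro S
  induction S using Finset.induction_on_max with
  | empty => intro G _ _ _ _ _; exact ⟨⊥, inferInstance, by simp [part]⟩
  | insert r σ hlt ih =>
    intro G _ _ hS hab hmany
    have hrσ : r ∉ σ := fun h => lt_irrefl r (hlt r h)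
    obtain ⟨hr, hpr⟩ := hS r (Finset.mem_insert_self r σ)
    haveI := Fact.mk hr
    have hσ : ∀ q ∈ σ, q.Prime ∧ p ≤ q := fun q hq => hS q (Finset.mem_insert_of_mem hq)
    have hσp : ∀ q ∈ σ, q.Prime := fun q hq => (hσ q hq).1
    rw [part_insert hrσ] at hmany ⊢
    set M := r ^ (Nat.card G).factorization r with hM
    set m := part σ G with hm
    rcases σ.eq_empty_or_nonempty with hempty | hne
    · obtain ⟨R⟩ : Nonempty (Sylow r G) := inferInstance
      refine ⟨(R : Subgroup G), hab r (Finset.mem_insert_self r σ) _ R.isPGroup', ?_⟩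
      rw [hm, hempty, part, Finset.prod_empty, mul_one]
      exact R.card_eq_multiplicity
    have hrp : p + 1 ≤ r := by
      obtain ⟨q, hq⟩ := hne
      have := hlt q hq
      have := (hσ q hq).2
      omega
    -- the induction hypothesis inside subgroups
    have hIH : ∀ C : Subgroup G, m < p * kPi (σ : Set ℕ) C →
        ∃ H : Subgroup G, H ≤ C ∧ IsMulCommutative H ∧ Nat.card H = m := by
      intro C hC
      have hpart : part σ C = m := by
        rcases part_eq_or hσ C with h | h
        · exact h
        · exfalso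
          have := Nat.mul_le_mul_left p (kPi_le_part (G := C) hσp)
          omega
      obtain ⟨H, hHc, hHcard⟩ := ih C hσ (fun q hq Q hQ => by
        exact isMulCommutative_of_map C.subtype C.subtype_injective
          (hab q (Finset.mem_insert_of_mem hq) (Q.map C.subtype) (hQ.map _))) (hpart ▸ hC)
      refine ⟨H.map C.subtype, Subgroup.map_subtype_le H, ?_,
        (Subgroup.card_map_of_injective C.subtype_injective).trans (hHcard.trans hpart)⟩
      haveI := hHc
      infer_instance
    obtain ⟨H, hHc, hHcard⟩ : ∃ H : Subgroup G, IsMulCommutative H ∧ Nat.card H = m := by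
      obtain ⟨u, hu⟩ := exists_large_centralizer (G := G) (p := p) hr hrσ (by rw [part_insert hrσ]; exact hmany)
      obtain ⟨H, -, h1, h2⟩ := hIH _ hu
      exact ⟨H, h1, h2⟩
    haveI := hHc
    have hHn : Group.IsNilpotent H := isNilpotent_of_isMulCommutative _
    -- the `r`-part of the centraliser
    obtain ⟨R₁⟩ : Nonempty (Sylow r (Subgroup.centralizer (H : Set G))) := inferInstance
    set R₀ : Subgroup G := (R₁ : Subgroup _).map (Subgroup.centralizer (H : Set G)).subtype with hR₀
    have hR₀p : IsPGroup r R₀ := R₁.isPGroup'.map _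
    have hR₀C : R₀ ≤ Subgroup.centralizer (H : Set G) := Subgroup.map_subtype_le _
    set a := Nat.card R₀ with ha
    have ha' : a = r ^ (Nat.card (Subgroup.centralizer (H : Set G))).factorization r := by
      rw [ha, hR₀, Subgroup.card_map_of_injective (Subgroup.centralizer (H : Set G)).subtype_injective]
      exact R₁.card_eq_multiplicity
    have hmax : ∀ U : Subgroup G, IsPGroup r U → U ≤ Subgroup.centralizer (H : Set G) → Nat.card U ≤ a := by
      intro U hU hUC
      obtain ⟨i, hi⟩ := IsPGroup.iff_card.mp hU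
      rw [hi, ha']
      exact Nat.pow_le_pow_right hr.pos ((hr.pow_dvd_iff_le_factorization Nat.card_pos.ne').mp
        (hi ▸ Subgroup.card_dvd_of_le hUC))
    by_cases haM : a = M
    · have hcop : (Nat.card H).Coprime (Nat.card R₀) := by
        rw [hHcard, ← ha, haM]
        exact Nat.Coprime.pow_right _ ((hr.coprime_iff_not_dvd).mpr fun h => hrσ (prime_dvd_part hσp hr h)).symm
      obtain ⟨f, hf, -⟩ := exists_prod_hom hR₀C hcop
      refine ⟨f.range, ⟨⟨?_⟩⟩, ?_⟩
      · rintro ⟨_, x, rfl⟩ ⟨_, y, rfl⟩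
        haveI := hab r (Finset.mem_insert_self r σ) R₀ hR₀p
        refine Subtype.ext ?_
        show f x * f y = f y * f x
        rw [← map_mul, ← map_mul]
        exact congrArg f (Prod.ext (mul_comm' x.1 y.1) (mul_comm' x.2 y.2))
      · rw [← Nat.card_congr (MonoidHom.ofInjective hf).toEquiv, Nat.card_prod, hHcard, ← ha, haM, mul_comm]
    exfalso
    have haM' : r * a ≤ M := by
      have hle : (Nat.card (Subgroup.centralizer (H : Set G))).factorization r ≤ (Nat.card G).factorization r :=
        (Nat.factorization_le_iff_dvd Nat.card_pos.ne' Nat.card_pos.ne').2 (Subgroup.card_subgroup_dvd_card _) r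
      rw [ha', hM, ← pow_succ']
      refine Nat.pow_le_pow_right hr.pos (Nat.lt_of_le_of_ne hle fun e => haM ?_)
      rw [ha', hM, e]
    -- elements that do not centralise a Hall subgroup
    set W := m / p with hW
    have hpW : p * W ≤ m := Nat.mul_div_le m p
    set good : ConjClasses G → Prop := fun c => c ∈ ConjClasses.mk '' (R₀ : Set G) with hgood
    have hbad : ∀ u : G, IsPiElt ({r} : Set ℕ) u → ¬ good (ConjClasses.mk u) →
        kPi (σ : Set ℕ) ↥(Subgroup.centralizer ({u} : Set G)) ≤ W := by
      intro u hu hnot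
      rw [hW, Nat.le_div_iff_mul_le (by omega), mul_comm]
      by_contra hlarge
      push Not at hlarge
      obtain ⟨H', hH'u, hH'c, hH'card⟩ := hIH _ hlarge
      haveI := hH'c
      obtain ⟨g, hg⟩ := hall_conj hσp (H := H') (isNilpotent_of_isMulCommutative _) hH'card
        (K := H) fun q hq hd => prime_dvd_part hσp hq (hHcard ▸ hd)
      have hu' : g⁻¹ * u * g ∈ Subgroup.centralizer (H : Set G) := by
        refine Subgroup.mem_centralizer_iff.mpr fun x hx => ?_
        have := Subgroup.mem_centralizer_singleton_iff.mp (hH'u (hg x hx))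
        calc x * (g⁻¹ * u * g) = g⁻¹ * (g * x * g⁻¹ * u) * g := by group
          _ = g⁻¹ * (u * (g * x * g⁻¹)) * g := by rw [this]
          _ = g⁻¹ * u * g * x := by group
      obtain ⟨c, hc⟩ := sylow_conj_into R₁ (x := ⟨_, hu'⟩) fun q hq hd => by
        rw [← Subgroup.orderOf_coe] at hd
        exact isPiElt_conj (isConj_iff.mpr ⟨g⁻¹, by group⟩) hu q hq hd
      refine hnot ⟨_, Subgroup.mem_map_of_mem _ hc, ?_⟩
      exact (ConjClasses.mk_eq_mk_iff_isConj.mpr (isConj_iff.mpr ⟨(c : G) * g⁻¹, by simp [mul_assoc]⟩)).symm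
    have hgoodn : {c | good c}.ncard ≤ a := by
      refine (Set.ncard_image_le (Set.toFinite _)).trans (le_of_eq ?_)
      rw [ha, ← Nat.card_coe_set_eq]
      rfl
    -- the centraliser of `R₀`
    set L := Subgroup.centralizer (R₀ : Set G) with hL
    have hHL : H ≤ L := fun x hx => Subgroup.mem_centralizer_iff.mpr fun y hy =>
      (Subgroup.mem_centralizer_iff.mp (hR₀C hy) x hx).symm
    have hgoodK : ∀ u : G, IsPiElt ({r} : Set ℕ) u → good (ConjClasses.mk u) →
        kPi (σ : Set ℕ) ↥(Subgroup.centralizer ({u} : Set G)) ≤ kPi (σ : Set ℕ) L := by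
      rintro u - ⟨x, hx, hxu⟩
      obtain ⟨e⟩ := exists_centralizer_equiv (ConjClasses.mk_eq_mk_iff_isConj.mp hxu).symm
      refine (kPi_congr_equiv _ e).trans ?_
      have hLx : L ≤ Subgroup.centralizer ({x} : Set G) := Subgroup.centralizer_le (by simpa using hx)
      refine Nat.card_le_card_of_surjective
        (fun c : {c : ConjClasses L // ∃ z, ConjClasses.mk z = c ∧ IsPiElt (σ : Set ℕ) z} =>
          (⟨ConjClasses.map (Subgroup.inclusion hLx) c.1, by
            obtain ⟨c, z, rfl, hz⟩ := c
            exact ⟨_, rfl, fun q hq hd => hz q hq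
              (by rwa [orderOf_injective _ (Subgroup.inclusion_injective hLx)] at hd)⟩⟩ :
            {c : ConjClasses ↥(Subgroup.centralizer ({x} : Set G)) //
              ∃ z, ConjClasses.mk z = c ∧ IsPiElt (σ : Set ℕ) z})) ?_
      rintro ⟨c, z, rfl, hz⟩
      obtain ⟨g, hg⟩ := conj_into_hall_of_le hσp hHn hHcard (hHL.trans hLx) hz
      refine ⟨⟨ConjClasses.mk ⟨_, hHL hg⟩, ⟨_, hHL hg⟩, rfl, fun q hq hd => ?_⟩, Subtype.ext ?_⟩
      · rw [Subgroup.orderOf_mk] at hd
        exact prime_dvd_part hσp hq (hHcard ▸ hd.trans (H.orderOf_dvd_natCard hg))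
      · exact (ConjClasses.mk_eq_mk_iff_isConj.mpr (isConj_iff.mpr ⟨g, rfl⟩)).symm
    obtain ⟨n, b, hn, hnb, hk⟩ := kPi_split (fun g hg => split_left (S := σ) hr g hg) good _ W hgoodK hbad
    have hn' : n ≤ a := hn.trans hgoodn
    have hmL : part σ L = m := part_eq_of_le hσp hHcard hHL
    by_cases hfus : ∀ (s : ℕ) (_ : Fact s.Prime), s ∈ σ → ∀ Q : Sylow s L,
        Subgroup.normalizer ((Q : Subgroup L) : Set L) ≤ Subgroup.centralizer ((Q : Subgroup L) : Set L)
    · -- no fusion: a normal complement in the centraliser of `R₀`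
      obtain ⟨K₁, hK₁, hK₁i, hK₁c⟩ := exists_normal_complement (G := L) hσp hfus
      obtain ⟨R, hR⟩ := hR₀p.exists_le_sylow
      haveI := hab r (Finset.mem_insert_self r σ) R R.isPGroup'
      have hRL : (R : Subgroup G) ≤ L := fun x hx => Subgroup.mem_centralizer_iff.mpr fun y hy =>
        congrArg Subtype.val (mul_comm' (⟨y, hR hy⟩ : (R : Subgroup G)) ⟨x, hx⟩)
      set K := K₁.map L.subtype with hK
      have hRK : (R : Subgroup G) ≤ K := by
        intro x hx
        haveI := hK₁
        refine ⟨⟨x, hRL hx⟩, mem_of_coprime_index K₁ ?_, rfl⟩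
        obtain ⟨j, hj⟩ := IsPGroup.iff_orderOf.mp R.isPGroup' ⟨x, hx⟩
        rw [Subgroup.orderOf_mk] at hj
        rw [Subgroup.orderOf_mk, hj, hK₁i, hmL]
        exact Nat.Coprime.pow_left _ ((hr.coprime_iff_not_dvd).mpr fun h => hrσ (prime_dvd_part hσp hr h))
      have hKcard : Nat.card K = Nat.card K₁ := Subgroup.card_map_of_injective L.subtype_injective
      have hHK : H ≤ Subgroup.normalizer (K : Set G) := by
        intro x hx
        refine Subgroup.mem_normalizer_fintype ?_
        rintro _ ⟨z, hz, rfl⟩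
        exact ⟨(⟨x, hHL hx⟩ : L) * z * (⟨x, hHL hx⟩ : L)⁻¹, hK₁.conj_mem z hz _, rfl⟩
      have hcop : (Nat.card H).Coprime (Nat.card K) := by
        rw [hHcard, hKcard]
        exact Nat.coprime_of_dvd fun q hq h1 h2 => hK₁c q (prime_dvd_part hσp hq h1) h2
      obtain ⟨P, hP⟩ := CoprimeAction.exists_invariant_sylow hHK hcop
        (Or.inl (Group.isSolvable_of_comm fun x y => mul_comm' x y)) r
      set R' := (P : Subgroup K).map K.subtype with hR'
      have hR'card : Nat.card R' = M := by
        rw [hR', Subgroup.card_map_of_injective K.subtype_injective]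
        refine le_antisymm ?_ ?_
        · obtain ⟨i, hi⟩ := IsPGroup.iff_card.mp P.isPGroup'
          rw [hi, hM]
          exact Nat.pow_le_pow_right hr.pos ((hr.pow_dvd_iff_le_factorization Nat.card_pos.ne').mp
            (hi ▸ (Subgroup.card_subgroup_dvd_card (P : Subgroup K)).trans (Subgroup.card_subgroup_dvd_card K)))
        · refine Nat.le_of_dvd Nat.card_pos (P.pow_dvd_card_of_pow_dvd_card ?_)
          rw [← R.card_eq_multiplicity]
          exact Subgroup.card_dvd_of_le hRK
      have hkr : kPi ({r} : Set ℕ) G ≤ (ConjClasses.mk '' (R' : Set G)).ncard :=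
        kPi_le_ncard_image fun x hx => by
          obtain ⟨g, hg⟩ := sylow_conj_into (Sylow.ofCard R' hR'card) hx
          rw [Sylow.coe_ofCard] at hg
          exact ⟨g, hg⟩
      set U₀ := R' ⊓ Subgroup.centralizer (H : Set G)
      have h2 := mul_ncard_image_le ConjClasses.mk (R' : Set G) (U₀ : Set G) (fun x hx => hx.1) (q := p)
        fun x hx hx₀ => fiber_ge H R' hP (fun t ht htd => (hσ t (prime_dvd_part hσp ht (hHcard ▸ htd))).2) hx hx₀
      rw [← Nat.card_coe_set_eq (R' : Set G), ← Nat.card_coe_set_eq (U₀ : Set G)] at h2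
      change _ ≤ Nat.card R' + (p - 1) * Nat.card U₀ at h2
      rw [hR'card] at h2
      have hU₀ : Nat.card U₀ ≤ a := hmax _ ((P.isPGroup'.map _).to_le inf_le_left) inf_le_right
      have hKm : kPi (σ : Set ℕ) L ≤ m := (kPi_le_part hσp).trans hmL.le
      have hfinal : p * kPi ((insert r σ : Finset ℕ) : Set ℕ) G ≤ M * m := by
        refine arith_action hp (hk.trans (Nat.add_le_add_right (Nat.mul_le_mul_left n hKm) _)) hpW hnb hn' ?_
          ((Nat.mul_le_mul_right a hrp).trans haM')
        exact (Nat.mul_le_mul_left p hkr).trans (h2.trans (Nat.add_le_add_left (Nat.mul_le_mul_left _ hU₀) _))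
      omega
    · -- fusion in the centraliser
      push Not at hfus
      obtain ⟨s, hs, hsσ, Q, hQ⟩ := hfus
      have hQc : IsMulCommutative (Q : Subgroup L) := by
        exact isMulCommutative_of_map L.subtype L.subtype_injective
          (hab s (Finset.mem_insert_of_mem hsσ) ((Q : Subgroup L).map L.subtype) (Q.isPGroup'.map _))
      have hks := (fusion_or Q hQc).resolve_left hQ
      rw [Q.card_eq_multiplicity] at hks
      have hK : 2 * p * kPi (σ : Set ℕ) L ≤ (p + 1) * m := by
        have h1 := kPi_le_prime_mul (G := L) σ hσp hsσ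
        have h3 : s ^ (Nat.card L).factorization s * (σ.erase s).prod (fun q => q ^ (Nat.card L).factorization q)
            = m := by
          rw [← hmL]
          exact Finset.mul_prod_erase σ (fun q => q ^ (Nat.card L).factorization q) hsσ
        set ks := kPi ({s} : Set ℕ) L
        set E := (σ.erase s).prod (fun q => q ^ (Nat.card L).factorization q)
        set Ms := s ^ (Nat.card L).factorization s
        refine Nat.le_of_mul_le_mul_left ?_ hs.out.pos
        calc s * (2 * p * kPi (σ : Set ℕ) L) ≤ s * (2 * p * (ks * E)) := by gcongr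
          _ = p * (2 * s * ks) * E := by ring
          _ ≤ p * ((s + 1) * Ms) * E := by gcongr
          _ = (p * (s + 1)) * (Ms * E) := by ring
          _ ≤ (s * (p + 1)) * (Ms * E) := by
              refine Nat.mul_le_mul_right _ ?_
              have := (hσ s hsσ).2
              nlinarith
          _ = s * ((p + 1) * m) := by rw [h3]; ring
      obtain ⟨R⟩ : Nonempty (Sylow r G) := inferInstance
      rcases fusion_or R (hab r (Finset.mem_insert_self r σ) _ R.isPGroup') with hnf | hrf
      · -- no fusion of `r`-elements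
        obtain ⟨N, hN, hNi, hNc⟩ := exists_normal_complement (G := G) (S := {r}) (by simpa using hr)
          fun s hs' hmem Q' => by
            rw [Finset.mem_singleton] at hmem
            subst hmem
            obtain ⟨g, hg⟩ := MulAction.exists_smul_eq G R Q'
            rw [← hg, Sylow.coe_subgroup_smul]
            intro x hx
            have hx' : g⁻¹ * x * g ∈ Subgroup.normalizer ((R : Subgroup G) : Set G) := by
              refine Subgroup.mem_normalizer_fintype fun y hy => ?_
              have h1 := (Subgroup.mem_normalizer_iff.mp hx (g * y * g⁻¹)).mp ⟨y, hy, rfl⟩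
              obtain ⟨z, hz, hzy⟩ := h1
              have hzy' : g * z * g⁻¹ = x * (g * y * g⁻¹) * x⁻¹ := hzy
              convert hz using 1
              calc g⁻¹ * x * g * y * (g⁻¹ * x * g)⁻¹ = g⁻¹ * (x * (g * y * g⁻¹) * x⁻¹) * g := by group
                _ = z := by rw [← hzy']; group
            refine Subgroup.mem_centralizer_iff.mpr ?_
            rintro _ ⟨y, hy, rfl⟩
            have := Subgroup.mem_centralizer_iff.mp (hnf hx') y hy
            show g * y * g⁻¹ * x = x * (g * y * g⁻¹)
            calc g * y * g⁻¹ * x = g * (y * (g⁻¹ * x * g)) * g⁻¹ := by group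
              _ = g * (g⁻¹ * x * g * y) * g⁻¹ := by rw [this]
              _ = x * (g * y * g⁻¹) := by group
        haveI := hN
        have hrN : ¬ r ∣ Nat.card N := hNc r (Finset.mem_singleton_self r)
        have hHN : H ≤ N := fun x hx => mem_of_coprime_index N (by
          rw [hNi, part, Finset.prod_singleton]
          refine Nat.Coprime.pow_right _ (Nat.Coprime.coprime_dvd_left (H.orderOf_dvd_natCard hx) ?_)
          rw [hHcard]
          exact ((hr.coprime_iff_not_dvd).mpr fun h => hrσ (prime_dvd_part hσp hr h)).symm)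
        set NH := Subgroup.normalizer (H : Set G)
        have hNH : r ^ (Nat.card G).factorization r ∣ Nat.card NH := by
          have := pow_dvd_normalizer hσp hHn hHcard hHN (le_top : H ≤ (⊤ : Subgroup G)) hr hrN
            (v := (Nat.card G).factorization r) (by rw [Subgroup.card_top]; exact Nat.ordProj_dvd _ _)
          rwa [inf_top_eq] at this
        obtain ⟨T₁⟩ : Nonempty (Sylow r NH) := inferInstance
        set T := (T₁ : Subgroup NH).map NH.subtype with hT
        have hTp : IsPGroup r T := T₁.isPGroup'.map _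
        have hTcard : Nat.card T = M := by
          rw [hT, Subgroup.card_map_of_injective NH.subtype_injective, T₁.card_eq_multiplicity, hM]
          refine congrArg (r ^ ·) (le_antisymm ?_ ?_)
          · exact (Nat.factorization_le_iff_dvd Nat.card_pos.ne' Nat.card_pos.ne').2
              (Subgroup.card_subgroup_dvd_card _) r
          · exact (hr.pow_dvd_iff_le_factorization Nat.card_pos.ne').mp hNH
        have hTN : T ≤ Subgroup.normalizer (H : Set G) := Subgroup.map_subtype_le _
        have hrm : ¬ r ∣ Nat.card H := by rw [hHcard]; exact fun h => hrσ (prime_dvd_part hσp hr h)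
        set H₀ := H ⊓ Subgroup.centralizer (T : Set G)
        have hfix : (r + 1) * Nat.card H₀ ≤ m := by
          rw [← hHcard]
          refine succ_mul_fixed_le T H hTN hTp hrm fun h => haM ?_
          refine le_antisymm (le_of_le_of_eq (le_refl a) ?_) (le_of_le_of_eq ?_ rfl)
          · exfalso
            have h2 := hmax T hTp fun x hx => Subgroup.mem_centralizer_iff.mpr fun y hy =>
              (Subgroup.mem_centralizer_iff.mp (h hy) x hx).symm
            rw [hTcard] at h2
            have h3 : 0 < a := Nat.card_pos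
            have h4 := hr.two_le
            nlinarith
          · exact hTcard ▸ hmax T hTp fun x hx => Subgroup.mem_centralizer_iff.mpr fun y hy =>
              (Subgroup.mem_centralizer_iff.mp (h hy) x hx).symm
        have hkσ : r * kPi (σ : Set ℕ) G ≤ m + (r - 1) * Nat.card H₀ := by
          have h1 : kPi (σ : Set ℕ) G ≤ (ConjClasses.mk '' (H : Set G)).ncard :=
            kPi_le_ncard_image fun x hx => conj_into_hall hσp hHn hHcard hx
          have h2 := mul_ncard_image_le ConjClasses.mk (H : Set G) (H₀ : Set G) (fun x hx => hx.1) (q := r)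
            fun x hx hx₀ => fiber_ge T H hTN (fun t ht htd => le_of_eq
              ((Nat.prime_dvd_prime_iff_eq ht hr).mp (ht.dvd_of_dvd_pow (hTcard ▸ htd))).symm) hx hx₀
          rw [← Nat.card_coe_set_eq (H : Set G), ← Nat.card_coe_set_eq (H₀ : Set G)] at h2
          change _ ≤ Nat.card H + (r - 1) * Nat.card H₀ at h2
          rw [hHcard] at h2
          exact (Nat.mul_le_mul_left r h1).trans h2
        obtain ⟨n', b', hn'', hnb', hk'⟩ := kPi_split (fun g hg => split_right (S := σ) hr g hg)
          (fun c => c ∈ ConjClasses.mk '' (H₀ : Set G)) M (M / r)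
          (fun u _ _ => (kPi_prime_le_pow hr).trans (Nat.pow_le_pow_right hr.pos
            ((Nat.factorization_le_iff_dvd Nat.card_pos.ne' Nat.card_pos.ne').2 (Subgroup.card_subgroup_dvd_card _) r)))
          (fun u hu hnot => by
            rw [Nat.le_div_iff_mul_le hr.pos]
            refine (Nat.mul_le_mul_right r (kPi_prime_le_pow hr)).trans ?_
            rw [← pow_succ, hM]
            refine Nat.pow_le_pow_right hr.pos (Nat.lt_of_le_of_ne
              ((Nat.factorization_le_iff_dvd Nat.card_pos.ne' Nat.card_pos.ne').2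
                (Subgroup.card_subgroup_dvd_card _) r) fun hfull => hnot ?_)
            obtain ⟨g, hg⟩ := conj_into_hall hσp hHn hHcard hu
            set h₁ := g * u * g⁻¹
            obtain ⟨e⟩ := exists_centralizer_equiv (isConj_iff.mpr ⟨g, rfl⟩ : IsConj u h₁)
            set C := Subgroup.centralizer ({h₁} : Set G)
            have hC : r ^ (Nat.card G).factorization r ∣ Nat.card C := by
              rw [← Nat.card_congr e.toEquiv, ← hfull]
              exact Nat.ordProj_dvd _ _
            have hHC : H ≤ C := fun x hx => Subgroup.mem_centralizer_singleton_iff.mpr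
              (congrArg Subtype.val (mul_comm' (⟨x, hx⟩ : H) ⟨h₁, hg⟩))
            have hd := pow_dvd_normalizer hσp hHn hHcard hHN hHC hr hrN hC
            obtain ⟨U₁, hU₁⟩ := Sylow.exists_subgroup_card_pow_prime r hd
            set U := U₁.map (NH ⊓ C).subtype
            have hUN : U ≤ NH := (Subgroup.map_subtype_le _).trans inf_le_left
            have hUC : U ≤ C := (Subgroup.map_subtype_le _).trans inf_le_right
            have hUc : Nat.card (U.subgroupOf NH) = r ^ (Nat.card NH).factorization r := by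
              rw [Nat.card_congr (Subgroup.subgroupOfEquivOfLe hUN).toEquiv,
                Subgroup.card_map_of_injective (NH ⊓ C).subtype_injective, hU₁]
              refine congrArg (r ^ ·) (le_antisymm ((hr.pow_dvd_iff_le_factorization Nat.card_pos.ne').mp hNH) ?_)
              exact (Nat.factorization_le_iff_dvd Nat.card_pos.ne' Nat.card_pos.ne').2
                (Subgroup.card_subgroup_dvd_card _) r
            obtain ⟨nn, hnn⟩ := MulAction.exists_smul_eq NH T₁ (Sylow.ofCard _ hUc)
            refine ⟨(nn : G)⁻¹ * h₁ * (nn : G), ⟨?_, ?_⟩, ?_⟩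
            · exact ((Subgroup.mem_normalizer_iff''.mp nn.2) h₁).mp hg
            · refine Subgroup.mem_centralizer_iff.mpr ?_
              rintro _ ⟨t, ht, rfl⟩
              have htU : nn * t * nn⁻¹ ∈ U.subgroupOf NH := by
                have := congrArg (fun S : Sylow r NH => nn * t * nn⁻¹ ∈ (S : Subgroup NH)) hnn
                simp only [Sylow.coe_ofCard] at this
                exact this.mp ⟨t, ht, rfl⟩
              have := Subgroup.mem_centralizer_singleton_iff.mp (hUC (Subgroup.mem_subgroupOf.mp htU))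
              simp only [Subgroup.coe_mul, Subgroup.coe_inv] at this
              show (t : G) * ((nn : G)⁻¹ * h₁ * nn) = (nn : G)⁻¹ * h₁ * nn * t
              calc (t : G) * ((nn : G)⁻¹ * h₁ * nn) = (nn : G)⁻¹ * ((nn : G) * t * (nn : G)⁻¹ * h₁) * nn := by group
                _ = (nn : G)⁻¹ * (h₁ * ((nn : G) * t * (nn : G)⁻¹)) * nn := by rw [this]
                _ = _ := by group
            · exact (ConjClasses.mk_eq_mk_iff_isConj.mpr (isConj_iff.mpr ⟨(nn : G)⁻¹ * g, by simp [h₁, mul_assoc]⟩)).symm)
        have hn₂ : n' ≤ Nat.card H₀ := hn''.trans ((Set.ncard_image_le (Set.toFinite _)).trans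
          (le_of_eq (Nat.card_coe_set_eq (H₀ : Set G)).symm))
        have := arith_action hr.one_lt.le hk' (Nat.mul_div_le M r) hnb' hn₂ hkσ hfix
        have h2 : p * kPi ((insert r σ : Finset ℕ) : Set ℕ) G ≤ r * kPi ((insert r σ : Finset ℕ) : Set ℕ) G :=
          Nat.mul_le_mul_right _ hpr
        rw [mul_comm m M] at this
        omega
      · rw [R.card_eq_multiplicity] at hrf
        have := arith_fusion hp hr.pos hpr hk hK hpW hnb hn' haM' hrf
        omega

end CfsgLib.PiClasses
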