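import Mathlib
import Cfsg.Agent.PiClasses.Abelian
import Cfsg.Agent.PiClasses.Derived

/-!
Many classes of `π`-elements force a nilpotent Hall subgroup.
-/

set_option autoImplicit false

namespace CfsgLib.PiClasses

open CfsgLib.ClassesPi
open scoped Pointwise

universe u

/-- Translation of the class count and of the `π`-part. -/
theorem exists_finset {G : Type*} [Group G] [Finite G] (π : Set ℕ) (m : ℕ) (hm : m ∣ Nat.card G)
    (hmπ : ∀ q : ℕ, q.Prime → q ∣ m → q ∈ π) (hm' : ∀ q ∈ π, ¬ q ∣ Nat.card G / m) :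
    ∃ S : Finset ℕ, (∀ q ∈ S, q.Prime ∧ q ∈ π) ∧ part S G = m ∧
      Nat.card {C : ConjClasses G // ∀ q : ℕ, q.Prime → (∃ g : G, ConjClasses.mk g = C ∧ q ∣ orderOf g) → q ∈ π}
        = kPi (S : Set ℕ) G := by
  classical
  set S : Finset ℕ := (Nat.card G).primeFactors.filter (· ∈ π) with hS
  have hm0 : m ≠ 0 := fun h => Nat.card_pos.ne' (zero_dvd_iff.1 (h ▸ hm) : Nat.card G = 0)
  have hprod : part S G = m := by
    unfold part
    have hSm : S = m.primeFactors := by
      ext q
      simp only [hS, Finset.mem_filter, Nat.mem_primeFactors]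
      constructor
      · rintro ⟨⟨hq, hd, _⟩, hqπ⟩
        refine ⟨hq, ?_, hm0⟩
        rcases hq.dvd_mul.1 ((Nat.mul_div_cancel' hm).symm ▸ hd : q ∣ m * (Nat.card G / m)) with h | h
        · exact h
        · exact (hm' q hqπ h).elim
      · rintro ⟨hq, hd, _⟩
        exact ⟨⟨hq, hd.trans hm, Nat.card_pos.ne'⟩, hmπ q hq hd⟩
    conv_rhs => rw [← Nat.prod_factorization_pow_eq_self hm0]
    rw [Finsupp.prod, Nat.support_factorization, hSm]
    refine Finset.prod_congr rfl fun q hq => ?_
    obtain ⟨hqp, hqd, _⟩ := Nat.mem_primeFactors.1 hq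
    have hq0 : Nat.card G / m ≠ 0 := (Nat.div_pos (Nat.le_of_dvd Nat.card_pos hm) (Nat.pos_of_ne_zero hm0)).ne'
    conv_lhs => rw [← Nat.mul_div_cancel' hm, Nat.factorization_mul hm0 hq0, Finsupp.add_apply,
      Nat.factorization_eq_zero_of_not_dvd (hm' q (hmπ q hqp hqd)), add_zero]
  refine ⟨S, fun r hr => ⟨Nat.prime_of_mem_primeFactors (Finset.mem_filter.1 hr).1, (Finset.mem_filter.1 hr).2⟩,
    hprod, Nat.card_congr (Equiv.subtypeEquivRight fun C => ?_)⟩
  constructor
  · intro h
    obtain ⟨x, rfl⟩ := ConjClasses.mk_surjective C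
    exact ⟨x, rfl, fun r hr hd => by
      simp only [hS, Finset.coe_filter, Set.mem_setOf_eq, Nat.mem_primeFactors]
      exact ⟨⟨hr, hd.trans (orderOf_dvd_natCard x), Nat.card_pos.ne'⟩, h r hr ⟨x, rfl, hd⟩⟩⟩
  · rintro ⟨x, rfl, hx⟩ q hq ⟨g, hg, hd⟩
    have := isPiElt_conj (ConjClasses.mk_eq_mk_iff_isConj.1 hg).symm hx q hq hd
    exact (Finset.mem_filter.1 this).2

variable {G : Type u} [Group G] [Finite G] {S : Finset ℕ} {p : ℕ}

theorem part_erase {q : ℕ} (hq : q ∈ S) :
    part S G = q ^ (Nat.card G).factorization q * part (S.erase q) G :=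
  (Finset.mul_prod_erase S (fun r => r ^ (Nat.card G).factorization r) hq).symm

/-- A Sylow subgroup carries many classes. -/
theorem sylow_card_lt (hS : ∀ q ∈ S, q.Prime) (hmany : part S G < p * kPi (S : Set ℕ) G)
    {q : ℕ} [Fact q.Prime] (hq : q ∈ S) (R : Sylow q G) :
    Nat.card (R : Subgroup G) < p * Nat.card (ConjClasses (R : Subgroup G)) := by
  by_contra hcon
  push Not at hcon
  refine absurd hmany (not_lt.mpr ?_)
  rw [part_erase hq, ← R.card_eq_multiplicity]
  refine (Nat.mul_le_mul_left p (kPi_le_prime_mul (G := G) S hS hq)).trans ?_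
  rw [← mul_assoc]
  exact Nat.mul_le_mul_right _ ((Nat.mul_le_mul_left p (kPi_prime_le_card_conjClasses R)).trans hcon)

theorem abelian_of_sylow {q : ℕ} [Fact q.Prime] (R : Sylow q G) (hR : IsMulCommutative (R : Subgroup G))
    (U : Subgroup G) (hU : IsPGroup q U) : IsMulCommutative U := by
  obtain ⟨T, hT⟩ := hU.exists_le_sylow
  obtain ⟨g, hg⟩ := MulAction.exists_smul_eq G T R
  refine ⟨⟨fun x y => Subtype.ext ?_⟩⟩
  have hmem : ∀ z ∈ U, g * z * g⁻¹ ∈ (R : Subgroup G) := fun z hz => by
    rw [← hg]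
    exact Subgroup.smul_mem_pointwise_smul z (MulAut.conj g) _ (hT hz)
  have := congrArg Subtype.val
    (mul_comm' (⟨_, hmem x x.2⟩ : (R : Subgroup G)) ⟨_, hmem y y.2⟩)
  simp only [Subgroup.coe_mul] at this
  show (x : G) * y = y * x
  calc (x : G) * y = g⁻¹ * (g * x * g⁻¹ * (g * y * g⁻¹)) * g := by group
    _ = g⁻¹ * (g * y * g⁻¹ * (g * x * g⁻¹)) * g := by rw [this]
    _ = y * x := by group

/-- Sylow subgroups for primes above `p` are abelian. -/
theorem abelian_of_lt (hp : 2 ≤ p) (hS : ∀ q ∈ S, q.Prime) (hmany : part S G < p * kPi (S : Set ℕ) G)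
    {q : ℕ} (hq : q ∈ S) (hpq : p < q) (U : Subgroup G) (hU : IsPGroup q U) : IsMulCommutative U := by
  haveI := Fact.mk (hS q hq)
  obtain ⟨R⟩ : Nonempty (Sylow q G) := inferInstance
  refine abelian_of_sylow R ?_ U hU
  by_contra hna
  have h1 := card_conjClasses_nonabelian_le R.isPGroup' hna
  have h2 := sylow_card_lt hS hmany hq R
  obtain ⟨c, rfl⟩ : ∃ c, q = c + 1 := ⟨q - 1, by omega⟩
  set M := Nat.card (R : Subgroup G)
  set k := Nat.card (ConjClasses (R : Subgroup G))
  have h3 : p * ((c + 1) ^ 2 + (c + 1) - 1) ≤ (c + 1) ^ 3 := by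
    rw [show (c + 1) ^ 2 + (c + 1) - 1 = (c + 1) ^ 2 + c by omega]
    nlinarith [Nat.mul_le_mul_right ((c + 1) ^ 2 + c) (Nat.le_of_lt_succ hpq : p ≤ c)]
  have h4 := Nat.mul_lt_mul_of_pos_left h2 (pow_pos (Nat.succ_pos c) 3)
  have h5 := (Nat.mul_le_mul_left p h1).trans
    ((le_of_eq (by ring)).trans (Nat.mul_le_mul_right M h3))
  nlinarith

/-- The case of abelian Sylow `p`-subgroups. -/
theorem abelian_case (hp : 2 ≤ p) (hS : ∀ q ∈ S, q.Prime ∧ p ≤ q) (hmany : part S G < p * kPi (S : Set ℕ) G)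
    (hP : p ∈ S → ∀ U : Subgroup G, IsPGroup p U → IsMulCommutative U) :
    ∃ H : Subgroup G, IsMulCommutative H ∧ Nat.card H = part S G := by
  refine abelian_hall (by omega) S G hS (fun q hq U hU => ?_) hmany
  rcases (hS q hq).2.eq_or_lt with rfl | hlt
  · exact hP hq U hU
  · exact abelian_of_lt hp (fun q hq => (hS q hq).1) hmany hq hlt U hU

/-- The abelian theorem. -/
theorem abelian_hall_of_many (hp : p.Prime) (hS : ∀ q ∈ S, q.Prime ∧ p ≤ q)
    (hmany : part S G * (p ^ 2 + p - 1) < p ^ 3 * kPi (S : Set ℕ) G) :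
    ∃ H : Subgroup G, IsMulCommutative H ∧ Nat.card H = part S G := by
  haveI := Fact.mk hp
  have h2 := hp.two_le
  have hlt : part S G < p * kPi (S : Set ℕ) G := by
    refine Nat.lt_of_mul_lt_mul_left (a := p ^ 2) ?_
    calc p ^ 2 * part S G = part S G * p ^ 2 := mul_comm _ _
      _ ≤ part S G * (p ^ 2 + p - 1) := Nat.mul_le_mul_left _ (by omega)
      _ < _ := hmany
      _ = _ := by ring
  refine abelian_case h2 hS hlt fun hpS U hU => ?_
  obtain ⟨R⟩ : Nonempty (Sylow p G) := inferInstance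
  refine abelian_of_sylow R ?_ U hU
  by_contra hna
  refine absurd hmany (not_lt.mpr ?_)
  rw [part_erase hpS, ← R.card_eq_multiplicity]
  refine (Nat.mul_le_mul_left (p ^ 3) (kPi_le_prime_mul (G := G) S (fun q hq => (hS q hq).1) hpS)).trans ?_
  rw [← mul_assoc]
  refine (Nat.mul_le_mul_right _ ((Nat.mul_le_mul_left _ (kPi_prime_le_card_conjClasses R)).trans
    (card_conjClasses_nonabelian_le R.isPGroup' hna))).trans (le_of_eq ?_)
  show _ * _ * part (S.erase p) G = _
  ring

/-- Weight of a centraliser. -/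
theorem kPi_centralizer_le {p : ℕ} [Fact p.Prime] (hna : ∀ R : Sylow p G, ¬ IsMulCommutative (R : Subgroup G))
    (C : Subgroup G) :
    p ^ 3 * kPi ({p} : Set ℕ) C ≤ (p ^ 2 + p - 1) * p ^ (Nat.card G).factorization p ∧
      ((Nat.card C).factorization p < (Nat.card G).factorization p →
        p * kPi ({p} : Set ℕ) C ≤ p ^ (Nat.card G).factorization p) := by
  have hp : p.Prime := Fact.out
  have hle := (Nat.factorization_le_iff_dvd Nat.card_pos.ne' Nat.card_pos.ne').2
    (Subgroup.card_subgroup_dvd_card C) p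
  have hlt : (Nat.card C).factorization p < (Nat.card G).factorization p →
      p * kPi ({p} : Set ℕ) C ≤ p ^ (Nat.card G).factorization p := fun h => by
    refine (Nat.mul_le_mul_left p (kPi_prime_le_pow hp)).trans ?_
    rw [← pow_succ']
    exact Nat.pow_le_pow_right hp.pos h
  refine ⟨?_, hlt⟩
  rcases hle.eq_or_lt with heq | h
  · obtain ⟨T⟩ : Nonempty (Sylow p C) := inferInstance
    have hT : Nat.card ((T : Subgroup C).map C.subtype) = p ^ (Nat.card G).factorization p := by
      rw [Subgroup.card_map_of_injective C.subtype_injective, T.card_eq_multiplicity, heq]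
    have hT' : ¬ IsMulCommutative (T : Subgroup C) := fun hc => by
      refine hna (Sylow.ofCard _ hT) ?_
      rw [Sylow.coe_ofCard]
      haveI := hc
      infer_instance
    refine (Nat.mul_le_mul_left _ (kPi_prime_le_card_conjClasses T)).trans ?_
    refine (card_conjClasses_nonabelian_le T.isPGroup' hT').trans (le_of_eq ?_)
    rw [T.card_eq_multiplicity, heq]
  · calc p ^ 3 * kPi ({p} : Set ℕ) C = p ^ 2 * (p * kPi ({p} : Set ℕ) C) := by ring
      _ ≤ p ^ 2 * p ^ (Nat.card G).factorization p := Nat.mul_le_mul_left _ (hlt h)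
      _ ≤ _ := Nat.mul_le_mul_right _ (by have := hp.two_le; omega)

theorem arith_good {p g b K W N E kσ k : ℕ} (hp : 2 ≤ p) (hk : k ≤ g * K + b * W) (hgb : g + b = kσ)
    (hK : p ^ 3 * K ≤ (p ^ 2 + p - 1) * N) (hW : p * W ≤ N) (hg : p * g ≤ E) (hkσ : 3 * kσ ≤ 2 * E) :
    p * k ≤ N * E := by
  obtain ⟨a, ha⟩ : ∃ a, p ^ 2 + p - 1 = p ^ 2 + a ∧ p = a + 1 := ⟨p - 1, by omega, by omega⟩
  rw [ha.1] at hK
  obtain ⟨-, rfl⟩ := ha
  subst hgb
  refine Nat.le_of_mul_le_mul_left ?_ (by positivity : 0 < 3 * (a + 1) ^ 3)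
  calc 3 * (a + 1) ^ 3 * ((a + 1) * k) ≤ 3 * (a + 1) ^ 3 * ((a + 1) * (g * K + b * W)) := by gcongr
    _ = 3 * (a + 1) * g * ((a + 1) ^ 3 * K) + 3 * (a + 1) ^ 3 * b * ((a + 1) * W) := by ring
    _ ≤ 3 * (a + 1) * g * (((a + 1) ^ 2 + a) * N) + 3 * (a + 1) ^ 3 * b * N := by gcongr
    _ = N * ((3 * a) * ((a + 1) * g) + (a + 1) ^ 3 * (3 * (g + b))) := by ring
    _ ≤ N * ((3 * a) * E + (a + 1) ^ 3 * (2 * E)) := by gcongr
    _ ≤ N * ((a + 1) ^ 3 * E + (a + 1) ^ 3 * (2 * E)) := by
        refine Nat.mul_le_mul_left _ (Nat.add_le_add_right (Nat.mul_le_mul_right _ ?_) _)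
        nlinarith
    _ = _ := by ring

theorem arith_moved {p s K kP F N : ℕ} (hp : 2 ≤ p) (hs : p + 1 ≤ s) (hK : (p + 1) * K ≤ kP + p * F)
    (hkP : p ^ 3 * kP ≤ (p ^ 2 + p - 1) * N) (hF : (s + 1) * F ≤ N) : p * K ≤ N := by
  have hF' : (p + 2) * F ≤ N := (Nat.mul_le_mul_right F (by omega)).trans hF
  obtain ⟨a, ha⟩ : ∃ a, p = a + 2 := ⟨p - 2, by omega⟩
  subst ha
  rw [show (a + 2) ^ 2 + (a + 2) - 1 = (a + 2) ^ 2 + (a + 1) by omega] at hkP
  refine Nat.le_of_mul_le_mul_left ?_ (by positivity : 0 < (a + 2) ^ 2 * (a + 4) * (a + 3))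
  calc (a + 2) ^ 2 * (a + 4) * (a + 3) * ((a + 2) * K)
      = (a + 4) * (a + 2) ^ 3 * ((a + 2 + 1) * K) := by ring
    _ ≤ (a + 4) * (a + 2) ^ 3 * (kP + (a + 2) * F) := by gcongr
    _ = (a + 4) * ((a + 2) ^ 3 * kP) + (a + 2) ^ 4 * ((a + 2 + 2) * F) := by ring
    _ ≤ (a + 4) * (((a + 2) ^ 2 + (a + 1)) * N) + (a + 2) ^ 4 * N := by gcongr
    _ ≤ _ := by nlinarith [Nat.zero_le (N * a), Nat.zero_le (N * a ^ 2), Nat.zero_le (N * a ^ 3),
        Nat.zero_le (N * a ^ 4)]

/-- Conjugation of classes by elements of a normalising subgroup. -/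
@[reducible] def classAction (A U : Subgroup G) (h : A ≤ Subgroup.normalizer (U : Set G)) :
    MulAction A (ConjClasses U) where
  smul a := ConjClasses.map
    { toFun := fun u => (letI := normAction A U h; a • u)
      map_one' := Subtype.ext (by show (a : G) * (1 : U) * (a : G)⁻¹ = (1 : U); simp)
      map_mul' := fun x y => Subtype.ext (by
        show (a : G) * (x * y : U) * (a : G)⁻¹ = ((a : G) * x * (a : G)⁻¹) * ((a : G) * y * (a : G)⁻¹)
        simp [mul_assoc]) }
  one_smul c := by
    obtain ⟨x, rfl⟩ := ConjClasses.mk_surjective c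
    exact congrArg ConjClasses.mk (Subtype.ext (by show ((1 : A) : G) * x * ((1 : A) : G)⁻¹ = x; simp))
  mul_smul a b c := by
    obtain ⟨x, rfl⟩ := ConjClasses.mk_surjective c
    exact congrArg ConjClasses.mk (Subtype.ext (by
      show ((a * b : A) : G) * x * ((a * b : A) : G)⁻¹ = (a : G) * ((b : G) * x * (b : G)⁻¹) * (a : G)⁻¹
      simp [mul_assoc]))

/-- Classes of a `p`-group under a coprime action inside an overgroup. -/
theorem mul_range_classes_le (A U : Subgroup G) (h : A ≤ Subgroup.normalizer (U : Set G)) {p s q : ℕ}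
    [Fact p.Prime] [Fact s.Prime] (hU : IsPGroup p U) (hA : IsPGroup s A) (hps : p ≠ s) (hqs : q ≤ s)
    {C : Subgroup G} (hUC : U ≤ C) (hAC : A ≤ C) :
    q * (Set.range (ConjClasses.map (Subgroup.inclusion hUC))).ncard ≤
      Nat.card (ConjClasses U) + (q - 1) * Nat.card ↥(U ⊓ Subgroup.centralizer (A : Set G)) := by
  set U₀ : Set (ConjClasses U) := ConjClasses.mk '' {x : U | (x : G) ∈ Subgroup.centralizer (A : Set G)}
  have h2 := mul_ncard_image_le (ConjClasses.map (Subgroup.inclusion hUC)) Set.univ U₀ (Set.subset_univ _)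
    (q := q) fun c _ hc₀ => by
      letI := classAction A U h
      have hne : (MulAction.stabilizer A c).index ≠ 1 := by
        intro h1
        refine hc₀ ?_
        obtain ⟨x, rfl⟩ := ConjClasses.mk_surjective c
        have hfix : ∀ a : A, a • ConjClasses.mk x = ConjClasses.mk x := fun a =>
          MulAction.mem_stabilizer_iff.mp (by rw [Subgroup.index_eq_one.mp h1]; trivial)
        -- the invariant class
        let V : Set U := (ConjClasses.mk x).carrier
        letI := normAction A U h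
        have hV : ∀ (a : A) (y : U), y ∈ V → a • y ∈ V := fun a y hy => by
          rw [ConjClasses.mem_carrier_iff_mk_eq] at hy ⊢
          rw [← hfix a, ← hy]
          rfl
        let V' : SubMulAction A U := ⟨V, fun a {y} hy => hV a y hy⟩
        have hcard : ¬ s ∣ Nat.card V' := by
          intro hd
          have hVc : Nat.card V' = (MulAction.stabilizer (ConjAct U) x).index := by
            rw [MulAction.index_stabilizer, ConjAct.orbit_eq_carrier_conjClasses]
            exact Nat.card_coe_set_eq V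
          obtain ⟨i, hi⟩ := IsPGroup.iff_card.mp hU
          have := hd.trans (hVc ▸ Subgroup.index_dvd_card (MulAction.stabilizer (ConjAct U) x))
          rw [Nat.card_congr ConjAct.ofConjAct.toEquiv, hi] at this
          exact hps ((Nat.prime_dvd_prime_iff_eq Fact.out Fact.out).mp
            ((Fact.out : s.Prime).dvd_of_dvd_pow this)).symm
        obtain ⟨⟨y, hy⟩, hyfix⟩ := hA.nonempty_fixed_point_of_prime_not_dvd_card V' hcard
        refine ⟨y, Subgroup.mem_centralizer_iff.mpr fun a ha => ?_, ConjClasses.mem_carrier_iff_mk_eq.mp hy⟩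
        exact mul_inv_eq_iff_eq_mul.mp (congrArg (fun z => ((z : U) : G)) (congrArg Subtype.val (hyfix ⟨a, ha⟩)))
      obtain ⟨t, ht, htd⟩ := Nat.exists_prime_and_dvd hne
      obtain ⟨i, hi⟩ := IsPGroup.iff_card.mp hA
      have hts : t = s := (Nat.prime_dvd_prime_iff_eq ht Fact.out).mp
        (ht.dvd_of_dvd_pow (hi ▸ htd.trans (Subgroup.index_dvd_card _)))
      refine hqs.trans ((hts ▸ Nat.le_of_dvd (Nat.pos_of_ne_zero Subgroup.index_ne_zero_of_finite) htd).trans ?_)
      rw [MulAction.index_stabilizer]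
      refine Set.ncard_le_ncard ?_ (Set.toFinite _)
      rintro _ ⟨a, rfl⟩
      refine ⟨Set.mem_univ _, ?_⟩
      obtain ⟨x, rfl⟩ := ConjClasses.mk_surjective c
      refine ConjClasses.mk_eq_mk_iff_isConj.mpr (IsConj.symm ?_)
      exact isConj_iff.mpr ⟨(⟨a, hAC a.2⟩ : C), Subtype.ext rfl⟩
  rw [Set.image_univ, Set.ncard_univ] at h2
  refine h2.trans (Nat.add_le_add_left (Nat.mul_le_mul_left _ ?_) _)
  refine (Set.ncard_image_le (Set.toFinite _)).trans ?_
  rw [← Nat.card_coe_set_eq]
  exact Nat.card_le_card_of_injective (fun x => (⟨x.1.1, x.1.2, x.2⟩ : ↥(U ⊓ Subgroup.centralizer (A : Set G))))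
    fun a b hab => Subtype.ext (Subtype.ext (congrArg Subtype.val hab :))

/-- The assembled nilpotent Hall subgroup. -/
theorem hall_of_centralizing (hS : ∀ q ∈ S, q.Prime) [Fact p.Prime] (hpS : p ∈ S)
    (hmany : part S G < p * kPi (S : Set ℕ) G) {H T : Subgroup G} (hHc : IsMulCommutative H)
    (hH : Nat.card H = part (S.erase p) G) (hT : Nat.card T = p ^ (Nat.card G).factorization p)
    (hTH : T ≤ Subgroup.centralizer (H : Set G)) :
    ∃ L : Subgroup G, Nat.card L = part S G ∧ Group.IsNilpotent L ∧ Nat.card (commutator L) ≤ p := by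
  have hp : p.Prime := Fact.out
  have hcop : (Nat.card H).Coprime (Nat.card T) := by
    rw [hH, hT]
    exact Nat.Coprime.pow_right _ ((hp.coprime_iff_not_dvd).mpr fun h => (Finset.notMem_erase p S)
      (prime_dvd_part (fun q hq => hS q (Finset.mem_of_mem_erase hq)) hp h)).symm
  obtain ⟨f, hf, -⟩ := exists_prod_hom hTH hcop
  have hsur : Function.Surjective f.rangeRestrict := f.rangeRestrict_surjective
  haveI : Group.IsNilpotent H := isNilpotent_of_isMulCommutative H
  haveI : Group.IsNilpotent T := (IsPGroup.of_card hT).isNilpotent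
  refine ⟨f.range, ?_, Group.nilpotent_of_surjective f.rangeRestrict hsur, ?_⟩
  · rw [← Nat.card_congr (MonoidHom.ofInjective hf).toEquiv, Nat.card_prod, hH, hT, part_erase hpS, mul_comm]
  · have hT' : Nat.card (commutator T) ≤ p := by
      refine card_commutator_le hp (IsPGroup.of_card hT) ?_
      have := sylow_card_lt hS hmany hpS (Sylow.ofCard T hT)
      rwa [Sylow.coe_ofCard] at this
    have hmap : (commutator (H × T)).map f.rangeRestrict = commutator f.range := by
      rw [commutator_def, commutator_def, Subgroup.map_commutator, ← MonoidHom.range_eq_map,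
        MonoidHom.range_eq_top.mpr hsur]
    rw [← hmap]
    refine (Nat.le_of_dvd Nat.card_pos (Subgroup.card_map_dvd _ _)).trans ?_
    rw [commutator_def, ← Subgroup.top_prod_top, Subgroup.commutator_prod_prod, ← commutator_def, ← commutator_def,
      Nat.card_congr (Subgroup.prodEquiv _ _).toEquiv, Nat.card_prod]
    have hH1 : commutator H = ⊥ := by
      rw [commutator_def, Subgroup.commutator_eq_bot_iff_le_centralizer]
      exact fun x _ => Subgroup.mem_centralizer_iff.mpr fun y _ => mul_comm' y x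
    rw [hH1, Subgroup.card_bot, one_mul]
    exact hT'

/-- The nilpotent theorem. -/
theorem nilpotent_hall_of_many (hp : p.Prime) (hS : ∀ q ∈ S, q.Prime ∧ p ≤ q)
    (hmany : part S G < p * kPi (S : Set ℕ) G) :
    ∃ L : Subgroup G, Nat.card L = part S G ∧ Group.IsNilpotent L ∧ Nat.card (commutator L) ≤ p := by
  classical
  haveI := Fact.mk hp
  have hSp : ∀ q ∈ S, q.Prime := fun q hq => (hS q hq).1
  by_cases hab : p ∈ S → ∀ U : Subgroup G, IsPGroup p U → IsMulCommutative U
  · obtain ⟨H, hH, hHcard⟩ := abelian_case hp.two_le hS hmany hab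
    refine ⟨H, hHcard, isNilpotent_of_isMulCommutative H, ?_⟩
    have hH1 : commutator H = ⊥ := by
      rw [commutator_def, Subgroup.commutator_eq_bot_iff_le_centralizer]
      exact fun x _ => Subgroup.mem_centralizer_iff.mpr fun y _ => mul_comm' y x
    rw [hH1, Subgroup.card_bot]
    exact hp.one_lt.le
  push Not at hab
  obtain ⟨hpS, U₁, hU₁, hU₁na⟩ := hab
  have hna : ∀ R : Sylow p G, ¬ IsMulCommutative (R : Subgroup G) := fun R hR =>
    hU₁na (abelian_of_sylow R hR U₁ hU₁)
  set σ := S.erase p with hσdef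
  have hpσ : p ∉ σ := Finset.notMem_erase p S
  have hσ : ∀ q ∈ σ, q.Prime ∧ p ≤ q := fun q hq => hS q (Finset.mem_of_mem_erase hq)
  have hσp : ∀ q ∈ σ, q.Prime := fun q hq => (hσ q hq).1
  have hlt : ∀ q ∈ σ, p < q := fun q hq => lt_of_le_of_ne (hσ q hq).2 (Finset.ne_of_mem_erase hq).symm
  have habσ : ∀ q ∈ σ, ∀ U : Subgroup G, IsPGroup q U → IsMulCommutative U := fun q hq U hU =>
    abelian_of_lt hp.two_le hSp hmany (Finset.mem_of_mem_erase hq) (hlt q hq) U hU
  have hins : insert p σ = S := Finset.insert_erase hpS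
  set N := p ^ (Nat.card G).factorization p with hN
  set E := part σ G with hE
  have hNE : part S G = N * E := part_erase hpS
  -- abelian Hall subgroups in centralisers
  have hIH : ∀ C : Subgroup G, E < p * kPi (σ : Set ℕ) C →
      ∃ H : Subgroup G, H ≤ C ∧ IsMulCommutative H ∧ Nat.card H = E := by
    intro C hC
    have hpart : part σ C = E := by
      rcases part_eq_or hσ C with h | h
      · exact h
      · exfalso
        have := Nat.mul_le_mul_left p (kPi_le_part (G := C) hσp)
        omega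
    obtain ⟨H, hHc, hHcard⟩ := abelian_hall hp.one_lt.le σ C hσ (fun q hq U hU =>
      isMulCommutative_of_map C.subtype C.subtype_injective (habσ q hq (U.map C.subtype) (hU.map _)))
      (hpart ▸ hC)
    refine ⟨H.map C.subtype, Subgroup.map_subtype_le H, ?_,
      (Subgroup.card_map_of_injective C.subtype_injective).trans (hHcard.trans hpart)⟩
    haveI := hHc
    infer_instance
  obtain ⟨H, hHc, hHcard⟩ : ∃ H : Subgroup G, IsMulCommutative H ∧ Nat.card H = E := by
    obtain ⟨u, hu⟩ := exists_large_centralizer (G := G) (p := p) hp hpσ (by rw [hins]; exact hmany)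
    obtain ⟨H, -, h1, h2⟩ := hIH _ hu
    exact ⟨H, h1, h2⟩
  obtain ⟨P⟩ : Nonempty (Sylow p G) := inferInstance
  -- a Hall subgroup inside the centraliser of a Sylow `p`-subgroup
  by_cases hCP : E < p * kPi (σ : Set ℕ) ↥(Subgroup.centralizer ((P : Subgroup G) : Set G))
  · obtain ⟨H₁, hH₁, hH₁c, hH₁card⟩ := hIH _ hCP
    refine hall_of_centralizing hSp hpS hmany hH₁c hH₁card P.card_eq_multiplicity fun x hx => ?_
    exact Subgroup.mem_centralizer_iff.mpr fun y hy => (Subgroup.mem_centralizer_iff.mp (hH₁ hy) x hx).symm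
  push Not at hCP
  by_contra hgoal
  refine absurd hmany (not_lt.mpr ?_)
  rw [hNE, ← hins]
  set CP := Subgroup.centralizer ((P : Subgroup G) : Set G) with hCPdef
  by_cases hfus : ∀ (s : ℕ) (_ : Fact s.Prime), s ∈ σ → ∀ Q : Sylow s G,
      Subgroup.normalizer ((Q : Subgroup G) : Set G) ≤ Subgroup.centralizer ((Q : Subgroup G) : Set G)
  · -- no fusion: every weight is small
    obtain ⟨N₁, hN₁, hN₁i, hN₁c⟩ := exists_normal_complement (G := G) hσp hfus
    have hweight : ∀ u : G, IsPiElt (σ : Set ℕ) u →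
        kPi ({p} : Set ℕ) ↥(Subgroup.centralizer ({u} : Set G)) ≤ N / p := by
      intro u hu
      rw [Nat.le_div_iff_mul_le hp.pos, mul_comm]
      obtain ⟨g, hg⟩ := conj_into_hall hσp (isNilpotent_of_isMulCommutative H) hHcard hu
      set h₁ := g * u * g⁻¹
      obtain ⟨e⟩ := exists_centralizer_equiv (isConj_iff.mpr ⟨g, rfl⟩ : IsConj u h₁)
      refine (Nat.mul_le_mul_left p (kPi_congr_equiv _ e)).trans ?_
      set C := Subgroup.centralizer ({h₁} : Set G)
      by_contra hbig
      have hfull : (Nat.card C).factorization p = (Nat.card G).factorization p := by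
        refine le_antisymm ((Nat.factorization_le_iff_dvd Nat.card_pos.ne' Nat.card_pos.ne').2
          (Subgroup.card_subgroup_dvd_card C) p) (not_lt.mp fun h => hbig ((kPi_centralizer_le hna C).2 h))
      have hHC : H ≤ C := fun x hx => Subgroup.mem_centralizer_singleton_iff.mpr
        (congrArg Subtype.val (mul_comm' (⟨x, hx⟩ : H) ⟨h₁, hg⟩))
      set K := N₁ ⊓ C
      have hHK : H ≤ Subgroup.normalizer (K : Set G) := fun a ha => Subgroup.mem_normalizer_fintype
        fun x hx => ⟨hN₁.conj_mem x hx.1 a, C.mul_mem (C.mul_mem (hHC ha) hx.2) (C.inv_mem (hHC ha))⟩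
      have hcop : (Nat.card H).Coprime (Nat.card K) := by
        rw [hHcard]
        exact Nat.coprime_of_dvd fun q hq h1 h2 => hN₁c q (prime_dvd_part hσp hq h1)
          (h2.trans (Subgroup.card_dvd_of_le inf_le_left))
      obtain ⟨Q₀, hQ₀⟩ := CoprimeAction.exists_invariant_sylow hHK hcop
        (Or.inl (Group.isSolvable_of_comm fun x y => mul_comm' x y)) p
      set T := (Q₀ : Subgroup K).map K.subtype with hT
      have hTp : IsPGroup p T := Q₀.isPGroup'.map _
      obtain ⟨R⟩ : Nonempty (Sylow p C) := inferInstance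
      have hRK : (R : Subgroup C).map C.subtype ≤ K := by
        rintro _ ⟨x, hx, rfl⟩
        refine ⟨mem_of_coprime_index N₁ ?_, x.2⟩
        obtain ⟨j, hj⟩ := IsPGroup.iff_orderOf.mp R.isPGroup' ⟨x, hx⟩
        rw [Subgroup.orderOf_mk] at hj
        show (orderOf (x : G)).Coprime _
        rw [Subgroup.orderOf_coe, hj, hN₁i]
        exact Nat.Coprime.pow_left _ ((hp.coprime_iff_not_dvd).mpr fun h => hpσ (prime_dvd_part hσp hp h))
      have hTcard : Nat.card T = N := by
        rw [hT, Subgroup.card_map_of_injective K.subtype_injective, Q₀.card_eq_multiplicity, hN]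
        refine congrArg (p ^ ·) (le_antisymm
          ((Nat.factorization_le_iff_dvd Nat.card_pos.ne' Nat.card_pos.ne').2 (Subgroup.card_subgroup_dvd_card K) p)
          ((hp.pow_dvd_iff_le_factorization Nat.card_pos.ne').mp ?_))
        rw [← hfull, ← R.card_eq_multiplicity, ← Subgroup.card_map_of_injective (f := C.subtype) C.subtype_injective]
        exact Subgroup.card_dvd_of_le hRK
      have hTC : T ≤ C := (Subgroup.map_subtype_le _).trans inf_le_right
      -- a component of `H` moving `T`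
      have hD : (Subgroup.centralizer (T : Set G)).subgroupOf H ≠ ⊤ := by
        rw [Ne, Subgroup.subgroupOf_eq_top]
        intro hle
        exact hgoal (hall_of_centralizing hSp hpS hmany hHc hHcard hTcard fun x hx =>
          Subgroup.mem_centralizer_iff.mpr fun y hy => (Subgroup.mem_centralizer_iff.mp (hle hy) x hx).symm)
      obtain ⟨s, hs, hsd⟩ := Nat.exists_prime_and_dvd fun h => hD (Subgroup.index_eq_one.mp h)
      haveI := Fact.mk hs
      have hsσ : s ∈ σ := prime_dvd_part hσp hs (hHcard ▸ hsd.trans (Subgroup.index_dvd_card _))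
      obtain ⟨A₁⟩ : Nonempty (Sylow s H) := inferInstance
      set A := (A₁ : Subgroup H).map H.subtype
      have hAH : A ≤ H := Subgroup.map_subtype_le _
      have hA : IsPGroup s A := A₁.isPGroup'.map _
      have hAT : ¬ T ≤ Subgroup.centralizer (A : Set G) := fun h => by
        refine A₁.not_dvd_index (hsd.trans (Subgroup.index_dvd_of_le fun a ha => ?_))
        exact Subgroup.mem_centralizer_iff.mpr fun x hx =>
          (Subgroup.mem_centralizer_iff.mp (h hx) a (Subgroup.mem_map_of_mem _ ha)).symm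
      have hps : p ≠ s := (hlt s hsσ).ne
      have hsT : ¬ s ∣ Nat.card T := by
        rw [hTcard, hN]
        exact fun h => hps ((Nat.prime_dvd_prime_iff_eq hs hp).mp (hs.dvd_of_dvd_pow h)).symm
      have hF := succ_mul_fixed_le A T (hAH.trans hQ₀) hA hsT hAT
      have hR := mul_range_classes_le (q := p + 1) A T (hAH.trans hQ₀) hTp hA hps (hlt s hsσ : p + 1 ≤ s) hTC (hAH.trans hHC)
      have hK : kPi ({p} : Set ℕ) C ≤ (Set.range (ConjClasses.map (Subgroup.inclusion hTC))).ncard := by
        have hTc : Nat.card (T.subgroupOf C) = p ^ (Nat.card C).factorization p := by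
          rw [Nat.card_congr (Subgroup.subgroupOfEquivOfLe hTC).toEquiv, hTcard, hfull]
        refine (kPi_le_ncard_image (U := (T.subgroupOf C : Set C)) fun x hx => ?_).trans
          (Set.ncard_le_ncard ?_ (Set.toFinite _))
        · obtain ⟨g, hg⟩ := sylow_conj_into (Sylow.ofCard _ hTc) hx
          rw [Sylow.coe_ofCard] at hg
          exact ⟨g, hg⟩
        · rintro _ ⟨x, hx, rfl⟩
          exact ⟨ConjClasses.mk ⟨x.1, hx⟩, rfl⟩
      rw [Nat.add_sub_cancel] at hR
      rw [hTcard] at hF
      refine hbig (arith_moved hp.two_le (hlt s hsσ) ((Nat.mul_le_mul_left _ hK).trans hR) ?_ hF)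
      rw [← hTcard]
      refine card_conjClasses_nonabelian_le hTp fun hc => hna (Sylow.ofCard T hTcard) ?_
      rw [Sylow.coe_ofCard]
      exact hc
    obtain ⟨n, b, -, hnb, hk⟩ := kPi_split (fun g hg => split_right (S := σ) hp g hg) (fun _ => True) _ _
      (fun u hu _ => hweight u hu) (fun u hu _ => hweight u hu)
    refine (Nat.mul_le_mul_left p hk).trans ?_
    rw [← add_mul, hnb, mul_left_comm, mul_comm N]
    exact Nat.mul_le_mul (kPi_le_part hσp) (Nat.mul_div_le N p)
  · -- fusion
    push Not at hfus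
    obtain ⟨s, hs, hsσ, Q, hQ⟩ := hfus
    have hks := (fusion_or Q (habσ s hsσ _ Q.isPGroup')).resolve_left hQ
    rw [Q.card_eq_multiplicity] at hks
    have hkσ : 3 * kPi (σ : Set ℕ) G ≤ 2 * E := by
      have h1 := kPi_le_prime_mul (G := G) σ hσp hsσ
      have h3 := part_erase (G := G) hsσ
      rw [← hE] at h3
      have hs3 : 3 ≤ s := by
        have := hlt s hsσ
        have := hp.two_le
        omega
      refine Nat.le_of_mul_le_mul_left ?_ (by omega : 0 < 2 * s)
      calc 2 * s * (3 * kPi (σ : Set ℕ) G)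
          ≤ 2 * s * (3 * (kPi ({s} : Set ℕ) G * part (σ.erase s) G)) := by
            gcongr
            exact h1
        _ = 3 * (2 * s * kPi ({s} : Set ℕ) G) * part (σ.erase s) G := by ring
        _ ≤ 3 * ((s + 1) * s ^ (Nat.card G).factorization s) * part (σ.erase s) G := by gcongr
        _ = (3 * (s + 1)) * E := by rw [h3]; ring
        _ ≤ (4 * s) * E := Nat.mul_le_mul_right _ (by omega)
        _ = _ := by ring
    let good : ConjClasses G → Prop := fun c => ∃ x : CP, IsPiElt (σ : Set ℕ) x ∧ ConjClasses.mk (x : G) = c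
    obtain ⟨n, b, hn, hnb, hk⟩ := kPi_split (fun g hg => split_right (S := σ) hp g hg) good
      ((p ^ 2 + p - 1) * N / p ^ 3) (N / p)
      (fun u _ _ => by
        rw [Nat.le_div_iff_mul_le (pow_pos hp.pos 3), mul_comm]
        exact (kPi_centralizer_le hna _).1)
      (fun u hu hnot => by
        rw [Nat.le_div_iff_mul_le hp.pos, mul_comm]
        by_contra hbig
        set C := Subgroup.centralizer ({u} : Set G)
        have hfull : (Nat.card C).factorization p = (Nat.card G).factorization p := by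
          refine le_antisymm ((Nat.factorization_le_iff_dvd Nat.card_pos.ne' Nat.card_pos.ne').2
            (Subgroup.card_subgroup_dvd_card C) p) (not_lt.mp fun h => hbig ((kPi_centralizer_le hna C).2 h))
        obtain ⟨R⟩ : Nonempty (Sylow p C) := inferInstance
        have hR : Nat.card ((R : Subgroup C).map C.subtype) = N := by
          rw [Subgroup.card_map_of_injective C.subtype_injective, R.card_eq_multiplicity, hfull]
        obtain ⟨g, hg⟩ := MulAction.exists_smul_eq G P (Sylow.ofCard _ hR)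
        have hmem : g⁻¹ * u * g ∈ CP := by
          refine Subgroup.mem_centralizer_iff.mpr fun x hx => ?_
          have hx' : g * x * g⁻¹ ∈ (R : Subgroup C).map C.subtype := by
            have := congrArg (fun T : Sylow p G => g * x * g⁻¹ ∈ (T : Subgroup G)) hg
            simp only [Sylow.coe_ofCard] at this
            exact this.mp ⟨x, hx, rfl⟩
          have := Subgroup.mem_centralizer_singleton_iff.mp (Subgroup.map_subtype_le _ hx')
          calc x * (g⁻¹ * u * g) = g⁻¹ * (g * x * g⁻¹ * u) * g := by group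
            _ = g⁻¹ * (u * (g * x * g⁻¹)) * g := by rw [this]
            _ = g⁻¹ * u * g * x := by group
        refine hnot ⟨⟨_, hmem⟩, fun q hq hd => ?_, ?_⟩
        · rw [← Subgroup.orderOf_coe] at hd
          exact isPiElt_conj (isConj_iff.mpr ⟨g⁻¹, by group⟩) hu q hq hd
        · exact ConjClasses.mk_eq_mk_iff_isConj.mpr (isConj_iff.mpr ⟨g, by group⟩))
    have hngood : p * n ≤ E := by
      refine (Nat.mul_le_mul_left p (hn.trans ?_)).trans hCP
      rw [← Nat.card_coe_set_eq]
      refine Nat.card_le_card_of_surjective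
        (fun c : {c : ConjClasses CP // ∃ x, ConjClasses.mk x = c ∧ IsPiElt (σ : Set ℕ) x} =>
          (⟨ConjClasses.map CP.subtype c.1, by
            obtain ⟨c, x, rfl, hx⟩ := c
            exact ⟨x, hx, rfl⟩⟩ : {c | good c})) ?_
      rintro ⟨c, x, hx, rfl⟩
      exact ⟨⟨ConjClasses.mk x, x, rfl, hx⟩, rfl⟩
    exact arith_good hp.two_le hk hnb (Nat.mul_div_le _ _) (Nat.mul_div_le N p) hngood hkσ

end CfsgLib.PiClasses
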